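import Groth.Agent.S0748
import Groth.Agent.S0779
import Groth.Agent.Etrest.BigRes
import Groth.Agent.CohtopA.OverCoh
import Groth.Agent.Etcore.ZU
import Groth.Prelude.Def_EtDlF

/-!
# `Ext^n_fppf(ℤ[X], G) = H^n(X_et, G)`

For `f : X ⟶ S`, an fppf sheaf `F` on `S`: `Ext^n(ℤ[X], F) = H^n_fppf(X, F|_X)`
(`ext_Z_equiv_HF`); the restriction of a constant sheaf is constant (`constRes`); the fppf
cohomology of a constant sheaf is the étale one (S0748).
-/

set_option autoImplicit false
universe u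
open CategoryTheory CategoryTheory.Limits AlgebraicGeometry Opposite

noncomputable section

namespace Groth.Agent.Etdl.H769.ExtZ

open Groth.Agent.Etcore Groth.Agent.CohtopA

variable {X S : Scheme.{u}} (f : X ⟶ S)

/-- Restriction of big fppf sheaves along `f : X ⟶ S`: `(res f F)(Y/X) = F(Y/S)`. -/
abbrev res : EtFppf.AbF S ⥤ EtFppf.AbF X :=
  (Over.map f).sheafPushforwardContinuous AddCommGrpCat.{u + 1} (EtFppf.J X) (EtFppf.J S)

instance : (res f).Additive where

/-- `res` factors through the slice site. -/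
def resIso : res f ≅ (EtFppf.J S).overPullback AddCommGrpCat.{u + 1} (Over.mk f) ⋙
    Groth.Agent.Etrest.BigRes.sliceRes f := Iso.refl _

instance preservesFiniteLimits_res : PreservesFiniteLimits (res f) where
  preservesFiniteLimits K _ _ := by
    have h1 : PreservesLimitsOfShape K
        (res f ⋙ sheafToPresheaf (EtFppf.J X) AddCommGrpCat.{u + 1}) :=
      inferInstanceAs (PreservesLimitsOfShape K
        (sheafToPresheaf (EtFppf.J S) AddCommGrpCat.{u + 1} ⋙
        (Functor.whiskeringLeft _ _ _).obj (Over.map f).op))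
    exact preservesLimitsOfShape_of_reflects_of_preserves _
      (sheafToPresheaf (EtFppf.J X) AddCommGrpCat.{u + 1})

instance preservesEpimorphisms_res : (res f).PreservesEpimorphisms where
  preserves {F G} g hg := by
    rw [← Sheaf.isLocallySurjective_iff_epi'] at hg ⊢
    exact Presheaf.isLocallySurjective_whisker (EtFppf.J X) (EtFppf.J S) (Over.map f) g.hom

instance preservesFiniteColimits_res : PreservesFiniteColimits (res f) :=
  OverCoh.preservesFiniteColimits_of_epi _

theorem injective_res (I : EtFppf.AbF S) [Injective I] : Injective ((res f).obj I) := by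
  have := Groth.Agent.Etrest.BigRes.exactDiscrete.{u}
  have h1 : Injective (I.over (Over.mk f)) := OverInj.injective_over _ I
  exact ((Groth.Agent.Etrest.BigRes.sliceRes f).asEquivalence.map_injective_iff _).2 h1

/-- Homomorphisms out of `ULift ℤ`. -/
def zHomEquiv (A : AddCommGrpCat.{u + 1}) :
    (AddCommGrpCat.of (ULift.{u + 1} ℤ) ⟶ A) ≃ A where
  toFun φ := φ.hom (ULift.up 1)
  invFun a := AddCommGrpCat.ofHom ((zmultiplesHom A a).comp
    (AddEquiv.ulift (α := ℤ)).toAddMonoidHom)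
  left_inv φ := by
    ext x
    obtain ⟨m⟩ := x
    change (m : ℤ) • φ.hom (ULift.up 1) = φ.hom (ULift.up m)
    rw [← map_zsmul]
    congr 1
    ext
    simp
  right_inv a := by
    change (1 : ℤ) • a = a
    exact one_zsmul a

/-- The constant sheaf `ℤ` on the big fppf site. -/
abbrev zF (X : Scheme.{u}) : EtFppf.AbF X :=
  (constantSheaf (EtFppf.J X) AddCommGrpCat.{u + 1}).obj (AddCommGrpCat.of (ULift.{u + 1} ℤ))

/-- `Hom(ℤ, F) = F(X)`. -/
def homEquivZ (F : EtFppf.AbF X) : (zF X ⟶ F) ≃ F.obj.obj (op (Over.mk (𝟙 X))) :=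
  ((constantSheafAdj (EtFppf.J X) AddCommGrpCat.{u + 1}
    (Over.mkIdTerminal (X := X))).homEquiv _ F).trans (zHomEquiv _)

theorem homEquivZ_comp {F F' : EtFppf.AbF X} (c : zF X ⟶ F) (g : F ⟶ F') :
    homEquivZ F' (c ≫ g) = g.hom.app (op (Over.mk (𝟙 X))) (homEquivZ F c) := by
  dsimp [homEquivZ]
  rw [Adjunction.homEquiv_naturality_right]
  rfl

/-- The identification `Over.mk (𝟙 ≫ f) ⟶ Over.mk f`. -/
def topIso : (Over.map f).obj (Over.mk (𝟙 X)) ≅ Over.mk f :=
  Over.isoMk (Iso.refl _) (by simp)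

/-- The generator `ℤ ⟶ ℤ[X]|_X`. -/
def genRes : zF X ⟶ (res f).obj (ZU.Z.{u + 1} (EtFppf.J S) (Over.mk f)) :=
  (homEquivZ _).symm ((ZU.Z.{u + 1} (EtFppf.J S) (Over.mk f)).obj.map (topIso f).hom.op
    (ZU.gen.{u + 1} (EtFppf.J S) (Over.mk f)))

theorem genRes_bijective (F : EtFppf.AbF S) :
    Function.Bijective (fun (φ : ZU.Z.{u + 1} (EtFppf.J S) (Over.mk f) ⟶ F) =>
      genRes f ≫ (res f).map φ) := by
  have h1 : (homEquivZ ((res f).obj F)) ∘ (fun (φ : ZU.Z.{u + 1} (EtFppf.J S) (Over.mk f) ⟶ F) =>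
      genRes f ≫ (res f).map φ) = (F.obj.map (topIso f).hom.op) ∘
      (fun φ : ZU.Z.{u + 1} (EtFppf.J S) (Over.mk f) ⟶ F =>
        φ.hom.app (op (Over.mk f)) (ZU.gen.{u + 1} (EtFppf.J S) (Over.mk f))) := by
    funext φ
    refine (homEquivZ_comp (genRes f) ((res f).map φ)).trans ?_
    refine (congrArg (((res f).map φ).hom.app (op (Over.mk (𝟙 X))))
      ((homEquivZ _).apply_symm_apply _)).trans ?_
    exact ConcreteCategory.congr_hom (φ.hom.naturality (topIso f).hom.op) _
  refine (Function.Bijective.of_comp_iff' (homEquivZ ((res f).obj F)).bijective _).1 ?_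
  rw [h1]
  refine Function.Bijective.comp ?_ ((ZU.isGen_gen (Over.mk f)) F)
  exact ConcreteCategory.bijective_of_isIso (F.obj.map (topIso f).hom.op)

/-- `Ext^n(ℤ[X], F) = H^n_fppf(X, F|_X)`. -/
def ext_Z_equiv_HF (F : EtFppf.AbF S) (n : ℕ) :
    Abelian.Ext.{u + 1} (ZU.Z.{u + 1} (EtFppf.J S) (Over.mk f)) F n ≃+
      EtFppf.HF X ((res f).obj F) n :=
  ExtAdj.extOfHomEquiv (res f) (genRes f) (genRes_bijective f)
    (fun I _ n => by
      have : Injective ((res f).obj I) := injective_res f I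
      exact Abelian.Ext.subsingleton_of_injective _ _ _) F n

/-- The restriction of a constant sheaf is constant. -/
def constRes (M : AddCommGrpCat.{u + 1}) :
    (constantSheaf (EtFppf.J X) AddCommGrpCat.{u + 1}).obj M ≅
      (res f).obj ((constantSheaf (EtFppf.J S) AddCommGrpCat.{u + 1}).obj M) :=
  ((Over.map f).pushforwardContinuousSheafificationCompatibility AddCommGrpCat.{u + 1}
    (EtFppf.J X) (EtFppf.J S)).app ((Functor.const (Over S)ᵒᵖ).obj M)

/-- `Ext^n_fppf(ℤ[X], G) = H^n(X_et, G)` over any base. -/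
theorem nonempty_ext_equiv_H (G : Type) [AddCommGroup G] (n : ℕ) :
    Nonempty (Abelian.Ext.{u + 1} (ZU.Z.{u + 1} (EtFppf.J S) (Over.mk f)) (EtDl.constF S G) n ≃+
      EtCoh.H X (EtCoh.const X G) n) := by
  have : EtFppf.ACont X := Groth.Agent.S0779.result X
  obtain ⟨e⟩ := Groth.Agent.S0748.result X (EtCoh.const X G) n
  have i : (EtFppf.aPull X).obj (EtCoh.const X G) ≅ (res f).obj (EtDl.constF S G) :=
    Groth.Agent.Etrest.FppfExact.constIso X (AddCommGrpCat.of (ULift.{u + 1} G)) ≪≫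
      constRes f (AddCommGrpCat.of (ULift.{u + 1} G))
  have e1 : EtFppf.HF X ((EtFppf.aPull X).obj (EtCoh.const X G)) n ≃+
      EtFppf.HF X ((res f).obj (EtDl.constF S G)) n :=
    ((Abelian.extFunctorObj _ n).mapIso i).addCommGroupIsoToAddEquiv
  exact ⟨((ext_Z_equiv_HF f (EtDl.constF S G) n).trans e1.symm).trans e.symm⟩

/-- Subtask S3733-C. -/
theorem C_ext_Z_equiv_H (k : Type u) [Field k] [IsAlgClosed k] {X : Scheme.{u}}
    (f : X ⟶ Spec (CommRingCat.of k)) (G : Type) [AddCommGroup G] (n : ℕ) :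
    Nonempty (Abelian.Ext.{u + 1}
      (Groth.Agent.Etcore.ZU.Z.{u+1} (EtFppf.J (Spec (CommRingCat.of k))) (Over.mk f))
      (EtDl.constF (Spec (CommRingCat.of k)) G) n ≃+ EtCoh.H X (EtCoh.const X G) n) :=
  nonempty_ext_equiv_H f G n

end Groth.Agent.Etdl.H769.ExtZ
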